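import Cfsg.Agent.Lib.BlockAlg.Reduce

/-!
# Blocks with exactly two irreducible characters have both degrees equal
-/

set_option autoImplicit false
set_option linter.unusedSectionVars false
set_option linter.style.haveILetI false

namespace Cfsg.Agent.Lib.BlockAlg

open Cfsg MonoidAlgebra
open Cfsg.Agent.Lib.Blocks.Local Cfsg.Agent.Lib.Blocks.Central Cfsg.Agent.Lib.Blocks.Brauer
open Cfsg.Agent.Lib.Blk89.BlockPow
open scoped ComplexConjugate

universe u

variable {G : Type u} [Group G] [Fintype G] {M : Ideal AlgInt} [hMp : M.IsPrime]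
  [Fintype (IrrCharacter G)]

local notation "C" => Subalgebra.center ℂ (GA G)

theorem idem_singleton_mul (χ : IrrCharacter G) :
    (idem ({χ} : Set (IrrCharacter G)) : C) * idem ({χ} : Set (IrrCharacter G)) =
      idem ({χ} : Set (IrrCharacter G)) := by
  classical
  apply omegaHom_injective
  intro ψ
  rw [map_mul, omegaHom_idem]
  split_ifs <;> simp

theorem idem_mul_self (S : Set (IrrCharacter G)) : (idem S : C) * idem S = idem S := by
  classical
  apply omegaHom_injective
  intro ψ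
  rw [map_mul, omegaHom_idem]
  split_ifs <;> simp

theorem rk_idem_singleton (χ : IrrCharacter G) :
    rk ℂ ((idem ({χ} : Set (IrrCharacter G)) : C) : GA G) = charDegree (χ : G → ℂ) ^ 2 := by
  classical
  have h1 := rk_of_idempotent ((idem ({χ} : Set (IrrCharacter G)) : C) : GA G)
    (congrArg Subtype.val (idem_mul_self _))
  rw [coeff_idem, blockCoeff, finsum_mem_singleton] at h1
  have h2 : (Fintype.card G : ℂ) ≠ 0 := Nat.cast_ne_zero.mpr Fintype.card_ne_zero
  rw [Nat.card_eq_fintype_card, ← mul_assoc, mul_inv_cancel₀ h2, one_mul,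
    ← Cfsg.Agent.Lib.Char.Degree.charDegree_natCast
      (Cfsg.Agent.Lib.Char.Basic.isCharacter_of_isIrrCharacter χ.2), Complex.conj_natCast] at h1
  have h3 : (rk ℂ ((idem ({χ} : Set (IrrCharacter G)) : C) : GA G) : ℂ) =
      ((charDegree (χ : G → ℂ) ^ 2 : ℕ) : ℂ) := by
    rw [h1]
    push_cast
    ring
  exact_mod_cast h3

/-- **The degree equality for a block with two characters.** -/
theorem degrees_eq_of_block_two {B : Set (IrrCharacter G)} (hB : IsPBlock M B)
    {χ₁ χ₂ : IrrCharacter G} (hne : χ₁ ≠ χ₂) (hBeq : B = {χ₁, χ₂}) :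
    charDegree (χ₁ : G → ℂ) = charDegree (χ₂ : G → ℂ) := by
  classical
  letI := Fintype.ofFinite (ConjClasses G)
  haveI : Module.Finite (Res M) (MonoidAlgebra (Res M) G) := finite_groupAlg _
  set E : C := idem B with hE
  set F₁ : C := idem ({χ₁} : Set (IrrCharacter G)) with hF₁
  set F₂ : C := idem ({χ₂} : Set (IrrCharacter G)) with hF₂
  have hEloc : E ∈ localCenter M G := idem_mem_localCenter hB
  have hEsum : E = F₁ + F₂ := by
    apply omegaHom_injective
    intro ψ
    rw [map_add, hE, hF₁, hF₂, omegaHom_idem, omegaHom_idem, omegaHom_idem, hBeq]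
    by_cases h1 : ψ = χ₁
    · subst h1
      simp [Ne.symm hne, hne]
    · by_cases h2 : ψ = χ₂
      · subst h2
        simp [hne, Ne.symm hne]
      · simp [h1, h2]
  have hzF₁ : ∀ z : C, z * F₁ = omegaHom χ₁ z • F₁ := by
    intro z
    apply omegaHom_injective
    intro ψ
    rw [map_mul, map_smul, hF₁, omegaHom_idem]
    by_cases h1 : ψ = χ₁
    · subst h1
      simp
    · simp [h1]
  have hzF₂ : ∀ z : C, z * F₂ = omegaHom χ₂ z • F₂ := by
    intro z
    apply omegaHom_injective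
    intro ψ
    rw [map_mul, map_smul, hF₂, omegaHom_idem]
    by_cases h1 : ψ = χ₂
    · subst h1
      simp
    · simp [h1]
  have hF₁F₂ : F₁ * F₂ = 0 := by
    apply omegaHom_injective
    intro ψ
    rw [map_mul, map_zero, hF₁, hF₂, omegaHom_idem, omegaHom_idem]
    by_cases h1 : ψ = χ₁
    · subst h1
      simp [hne]
    · simp [h1]
  have hF₂F₂ : F₂ * F₂ = F₂ := idem_mul_self _
  have hF₁F₁ : F₁ * F₁ = F₁ := idem_mul_self _
  have hF₂E : F₂ * E = F₂ := by
    rw [hEsum, mul_add, mul_comm F₂ F₁, hF₁F₂, zero_add, hF₂F₂]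
  have hzE : ∀ z : C, z * E = omegaHom χ₁ z • E + (omegaHom χ₂ z - omegaHom χ₁ z) • F₂ := by
    intro z
    rw [hEsum, mul_add, hzF₁, hzF₂, smul_add, sub_smul]
    abel
  have hχ₁B : χ₁ ∈ B := by rw [hBeq]; simp
  have hχ₂B : χ₂ ∈ B := by rw [hBeq]; simp
  have hsb : SameBlock M (χ₂ : G → ℂ) (χ₁ : G → ℂ) := by
    have h1 : χ₂ ∈ blockOf M (χ₁ : G → ℂ) := by
      rw [← isPBlock_eq_blockOf hB hχ₁B]
      exact hχ₂B
    exact sameBlock_symm h1
  have hβ : ∀ z ∈ localCenter M G, MemLocalIdeal M (omegaHom χ₂ z - omegaHom χ₁ z) :=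
    fun z hz => omegaHom_sub_mem_of_sameBlock hsb hz
  -- the class where `F₂` and the difference of central characters are both units
  have hω₂F₂ : omegaHom χ₂ F₂ = 1 := by
    rw [hF₂, omegaHom_idem]
    simp
  have hω₁F₂ : omegaHom χ₁ F₂ = 0 := by
    rw [hF₂, omegaHom_idem]
    simp [hne]
  have hsum : ∑ D : ConjClasses G, (F₂ : GA G).coeff D.out *
      (omegaHom χ₂ (classSum D.out) - omegaHom χ₁ (classSum D.out)) = 1 := by
    have h1 := omegaHom_eq_sum_classes χ₂ F₂
    have h2 := omegaHom_eq_sum_classes χ₁ F₂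
    rw [hω₂F₂] at h1
    rw [hω₁F₂] at h2
    have h3 : (1 : ℂ) = 1 - 0 := by ring
    rw [h3]
    rw [h1, h2, ← Finset.sum_sub_distrib]
    refine Finset.sum_congr rfl fun D _ => ?_
    rw [omegaHom_classSum, omegaHom_classSum]
    ring
  obtain ⟨D, _, hD⟩ := exists_notMem_of_sum_notMem (M := M) Finset.univ _
    (by rw [hsum]; exact one_notMemLocalIdeal)
  set h₀ : G := D.out with hh₀
  set z₁ : C := classSum h₀ with hz₁
  have hz₁loc : z₁ ∈ localCenter M G := classSum_mem_localCenter _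
  set β₁ : ℂ := omegaHom χ₂ z₁ - omegaHom χ₁ z₁ with hβ₁
  have hβ₁mem : MemLocalIdeal M β₁ := hβ _ hz₁loc
  set t₀ : C := β₁ • F₂ with ht₀
  have ht₀eq : t₀ = z₁ * E - omegaHom χ₁ z₁ • E := by
    rw [hzE, add_sub_cancel_left]
  have ht₀loc : t₀ ∈ localCenter M G := by
    rw [ht₀eq]
    exact Subring.sub_mem _ (Subring.mul_mem _ hz₁loc hEloc)
      (smul_mem_localCenter (omegaHom_mem_local χ₁ hz₁loc) hEloc)
  have hu : ¬ MemLocalIdeal M ((t₀ : GA G).coeff h₀) := by
    have h1 : (t₀ : GA G).coeff h₀ = (F₂ : GA G).coeff h₀ * β₁ := by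
      change β₁ * (F₂ : GA G).coeff h₀ = _
      ring
    rw [h1]
    exact hD
  set ε : MonoidAlgebra (Res M) G := red M (E : GA G) with hε
  set w : MonoidAlgebra (Res M) G := red M (t₀ : GA G) with hw
  have hERc : Rc M (E : GA G) := hEloc
  have ht₀Rc : Rc M (t₀ : GA G) := ht₀loc
  have hr0 : r M β₁ = 0 := (r_eq_zero_iff (memLocalRing_of_memLocalIdeal hβ₁mem)).mpr hβ₁mem
  have hmain : Module.finrank (Res M) (MonoidAlgebra (Res M) G) ≤ 2 * rk (Res M) w + rk (Res M) (1 - ε) := by
    refine finrank_le_of_center_two lamK lamK_tracelike lamK_rep lamK_nondeg ε w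
      (central_red (isCentral_of_mem E)) (central_red (isCentral_of_mem t₀)) ?_ ?_ ?_ ?_
    · -- `w ≠ 0`
      intro h0
      have h1 : r M ((t₀ : GA G).coeff h₀) = 0 := by
        have := congrArg (fun x : MonoidAlgebra (Res M) G => x.coeff h₀) h0
        exact this
      exact hu ((r_eq_zero_iff (ht₀Rc h₀)).mp h1)
    · -- `w * w = 0`
      rw [hw, ← red_mul ht₀Rc ht₀Rc]
      have h1 : ((t₀ : GA G) * (t₀ : GA G)) = β₁ • (t₀ : GA G) := by
        have h2 : t₀ * t₀ = β₁ • t₀ := by
          rw [ht₀, smul_mul_smul_comm, hF₂F₂, smul_smul]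
        exact congrArg Subtype.val h2
      rw [h1, red_smul (memLocalRing_of_memLocalIdeal hβ₁mem) ht₀Rc, hr0, zero_smul]
    · -- `w * ε = w`
      rw [hw, hε, ← red_mul ht₀Rc hERc]
      congr 1
      have h2 : t₀ * E = t₀ := by
        rw [ht₀, smul_mul_assoc, hF₂E]
      exact congrArg Subtype.val h2
    · -- the center
      intro z hz
      obtain ⟨z', hz'loc, rfl⟩ := exists_lift_central hz
      have hz'Rc : Rc M (z' : GA G) := hz'loc
      set c := omegaHom χ₁ z' with hc
      have hcloc : MemLocalRing M c := omegaHom_mem_local χ₁ hz'loc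
      set β := omegaHom χ₂ z' - omegaHom χ₁ z' with hβdef
      set u : ℂ := (t₀ : GA G).coeff h₀ with hudef
      set f : ℂ := (F₂ : GA G).coeff h₀ with hf
      have hu0 : u ≠ 0 := ne_zero_of_notMem hu
      have huf : u = β₁ * f := rfl
      have hβ₁0 : β₁ ≠ 0 := by
        intro h0
        rw [huf, h0, zero_mul] at hu0
        exact hu0 rfl
      have hf0 : f ≠ 0 := by
        intro h0
        rw [huf, h0, mul_zero] at hu0
        exact hu0 rfl
      set ν : ℂ := (β * f) / u with hν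
      have hβF : β • F₂ = z' * E - c • E := by
        rw [hzE, add_sub_cancel_left]
      have hβFloc : β • F₂ ∈ localCenter M G := by
        rw [hβF]
        exact Subring.sub_mem _ (Subring.mul_mem _ hz'loc hEloc) (smul_mem_localCenter hcloc hEloc)
      have hβf : MemLocalRing M (β * f) := hβFloc h₀
      have hνloc : MemLocalRing M ν := by
        rw [hν, div_eq_mul_inv]
        exact memLocalRing_mul hβf (memLocalRing_inv_of_notMem (ht₀Rc h₀) hu)
      have hνβ : ν * β₁ = β := by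
        rw [hν, huf]
        field_simp
      have h1 : (z' : GA G) * (E : GA G) = c • (E : GA G) + ν • (t₀ : GA G) := by
        have h2 : z' * E = c • E + ν • t₀ := by
          rw [hzE, ht₀, smul_smul, hνβ]
        exact congrArg Subtype.val h2
      refine ⟨r M c, r M ν, ?_⟩
      rw [hε, hw, ← red_mul hz'Rc hERc, h1, red_add (Rc.smul hcloc hERc) (Rc.smul hνloc ht₀Rc),
        red_smul hcloc hERc, red_smul hνloc ht₀Rc]
  rw [finrank_groupAlg] at hmain
  -- ranks
  have hrk₂ : rk (Res M) w ≤ charDegree (χ₂ : G → ℂ) ^ 2 := by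
    refine (rk_red_le ht₀Rc).trans ?_
    rw [← rk_idem_singleton χ₂]
    exact rk_smul_le β₁ (F₂ : GA G)
  have hrk₁ : rk (Res M) w ≤ charDegree (χ₁ : G → ℂ) ^ 2 := by
    have h1 : t₀ - β₁ • E = (-β₁) • F₁ := by
      rw [hEsum, ht₀, smul_add, neg_smul]
      abel
    have h1' : (t₀ : GA G) - β₁ • (E : GA G) = (-β₁) • (F₁ : GA G) := congrArg Subtype.val h1
    have h2 : w = red M ((-β₁) • (F₁ : GA G)) := by
      rw [← h1', red_sub ht₀Rc (Rc.smul (memLocalRing_of_memLocalIdeal hβ₁mem) hERc),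
        red_smul (memLocalRing_of_memLocalIdeal hβ₁mem) hERc, hr0, zero_smul, sub_zero]
    have h3 : Rc M ((-β₁) • (F₁ : GA G)) := by
      rw [← h1']
      exact Rc.sub ht₀Rc (Rc.smul (memLocalRing_of_memLocalIdeal hβ₁mem) hERc)
    rw [h2]
    refine (rk_red_le h3).trans ?_
    rw [← rk_idem_singleton χ₁]
    exact rk_smul_le (-β₁) (F₁ : GA G)
  have hrkε : rk (Res M) (1 - ε) ≤ rk ℂ ((1 : GA G) - (E : GA G)) := by
    have h1 : 1 - ε = red M ((1 : GA G) - (E : GA G)) := by
      rw [red_sub Rc.one hERc, red_one]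
    rw [h1]
    exact rk_red_le (Rc.sub Rc.one hERc)
  have hrk1E : rk ℂ ((1 : GA G) - (E : GA G)) + charDegree (χ₁ : G → ℂ) ^ 2 +
      charDegree (χ₂ : G → ℂ) ^ 2 = Fintype.card G := by
    have hEE : (E : GA G) * (E : GA G) = E := congrArg Subtype.val (idem_mul_self B)
    have hidem : ((1 : GA G) - (E : GA G)) * ((1 : GA G) - (E : GA G)) = (1 : GA G) - (E : GA G) := by
      rw [mul_sub, sub_mul, sub_mul, one_mul, one_mul, mul_one, hEE]
      abel
    have h1 := rk_of_idempotent _ hidem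
    have h2 := rk_of_idempotent (F₁ : GA G) (congrArg Subtype.val hF₁F₁)
    have h3 := rk_of_idempotent (F₂ : GA G) (congrArg Subtype.val hF₂F₂)
    rw [show rk ℂ (F₁ : GA G) = _ from rk_idem_singleton χ₁] at h2
    rw [show rk ℂ (F₂ : GA G) = _ from rk_idem_singleton χ₂] at h3
    have h4 : ((1 : GA G) - (E : GA G)).coeff 1 = 1 - (F₁ : GA G).coeff 1 - (F₂ : GA G).coeff 1 := by
      rw [coeff_sub', coeff_one', if_pos rfl, hEsum]
      change 1 - ((F₁ : GA G).coeff 1 + (F₂ : GA G).coeff 1) = _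
      ring
    rw [h4] at h1
    have h5 : ((rk ℂ ((1 : GA G) - (E : GA G)) + charDegree (χ₁ : G → ℂ) ^ 2 +
        charDegree (χ₂ : G → ℂ) ^ 2 : ℕ) : ℂ) = (Fintype.card G : ℂ) := by
      rw [Nat.cast_add, Nat.cast_add, h1, h2, h3]
      ring
    exact_mod_cast h5
  have hsq : charDegree (χ₁ : G → ℂ) ^ 2 = charDegree (χ₂ : G → ℂ) ^ 2 := by
    omega
  exact Nat.pow_left_injective (n := 2) (by norm_num) hsq

end Cfsg.Agent.Lib.BlockAlg
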